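import Cfsg.Agent.H821.K547.Defs
import Cfsg.Agent.H307.K4.Parity
import Cfsg.Agent.H687.Gen

/-!
# S4547, the parity lemma (PAR) for the invariant good characters (helper306)

`τ` an automorphism of 2-power order modulo inner automorphisms, `x` of odd order, `τ x` conjugate to `x`:

* `sum_inv` : the sum of `χ x` over the `τ`-invariant good characters is zero modulo `M`;
* `even_inv` : the number of `τ`-invariant good characters is even;
* `gInv3_of_two` : `χ` good and `τ`-invariant, `χ ≠ 1`, `χ x = n`, `n` even: `GInv3 τ`;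
* `exists_inv` : there is a `τ`-invariant good `χ ≠ 1`; if `GInv3 τ` fails it is unique and `χ x = 1` modulo `M`.
-/

set_option autoImplicit false

open scoped ComplexConjugate
open Cfsg Cfsg.Agent.Characters.Core Cfsg.Agent.H618.Sigma Cfsg.Agent.Blocks.Local

namespace Cfsg.Agent.H306.K547

open Cfsg.Agent.H601.K4 Cfsg.Agent.H821.K547

universe u

variable {S : Type u} [Group S]

/-- the character `χ ∘ τ` -/
def tw (τ : MulAut S) (χ : IrrCharacter S) : IrrCharacter S :=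
  ⟨fun s => (χ : S → ℂ) (τ s), isIrr_comp τ.toMonoidHom τ.surjective χ.2⟩

theorem tw_apply (τ : MulAut S) (χ : IrrCharacter S) (s : S) : (tw τ χ : S → ℂ) s = (χ : S → ℂ) (τ s) := rfl

theorem good_tw (τ : MulAut S) {χ : IrrCharacter S} (h : Good (χ : S → ℂ)) : Good (tw τ χ : S → ℂ) := by
  refine ⟨⟨(tw τ χ).2, ?_⟩, ?_, ?_⟩
  · have h1 : charDegree (tw τ χ : S → ℂ) = charDegree (χ : S → ℂ) := by
      unfold charDegree
      rw [tw_apply, map_one]
    rw [h1]
    exact h.odd.2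
  · intro k h2 h3 g
    rw [tw_apply, tw_apply, map_pow]
    exact h.sig k h2 h3 (τ g)
  · intro M hM hi
    have h1 := h.b0 M hM χ.2
    have h2 := (Cfsg.Agent.H687.smul_mem_principalBlock M τ⁻¹ χ).2 h1
    exact h2

theorem tw_iter (τ : MulAut S) (n : ℕ) (χ : IrrCharacter S) : (tw τ)^[n] χ = tw (τ ^ n) χ := by
  induction n with
  | zero => rfl
  | succ n ih =>
    rw [Function.iterate_succ_apply', ih]
    apply Subtype.ext
    funext s
    rw [tw_apply, tw_apply, tw_apply, pow_succ]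
    rfl

theorem tw_conj (s : S) {τ : MulAut S} (h : ∀ x, τ x = s * x * s⁻¹) (χ : IrrCharacter S) : tw τ χ = χ := by
  apply Subtype.ext
  funext x
  rw [tw_apply, h, isIrr_isClassFunction χ.2]

/-- the sum over the good characters -/
theorem sum_good [Finite S] {M : Ideal AlgInt} [M.IsPrime] (hM : IsPModular 2 M) (hev : Even (Nat.card S))
    {x : S} (hx : Odd (orderOf x)) (O : Finset (IrrCharacter S)) (hO : ∀ χ, χ ∈ O ↔ Good (χ : S → ℂ)) :
    ∑ χ ∈ O, redC M ((χ : S → ℂ) x) = 0 := by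
  classical
  obtain ⟨k, hk⟩ := H740.K4.exists_cube S
  have := Fintype.ofFinite (OddB M S)
  rw [← sum_fixed_principal hM hk hev hx]
  symm
  refine Finset.sum_bij (fun (χ : OddB M S) _ => χ.1) ?_ ?_ ?_ ?_
  · intro χ hχ
    rw [Finset.mem_filter] at hχ
    exact (hO _).2 (H740.K4.good_of_mem hM hk χ hχ.2)
  · intro a _ b _ hab
    exact Subtype.ext hab
  · intro χ hχ
    have hg := (hO χ).1 hχ
    refine ⟨⟨χ, hg.b0 M hM χ.2, odd_iff.2 hg.odd.2⟩, ?_, rfl⟩
    rw [Finset.mem_filter]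
    exact ⟨Finset.mem_univ _, (sigB_eq_iff hk _).2 fun g => hg.sig k hk.two hk.odd g⟩
  · intro χ _
    rfl

/-- **The sum over the invariant good characters.** -/
theorem sum_inv [Finite S] {M : Ideal AlgInt} [M.IsPrime] (hM : IsPModular 2 M) (hev : Even (Nat.card S))
    {τ : MulAut S} (hτ : TwoPow τ) {x : S} (hx : Odd (orderOf x)) (hc : IsConj x (τ x))
    (O : Finset (IrrCharacter S))
    (hO : ∀ χ, χ ∈ O ↔ Good (χ : S → ℂ) ∧ ∀ s, (χ : S → ℂ) (τ s) = (χ : S → ℂ) s) :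
    ∑ χ ∈ O, redC M ((χ : S → ℂ) x) = 0 := by
  classical
  have hfin : Finite (IrrCharacter S) := finite_irr
  have := Fintype.ofFinite (IrrCharacter S)
  have hchar := charP_resField hM
  let Ω := {χ : IrrCharacter S // Good (χ : S → ℂ)}
  let s : Ω → Ω := fun χ => ⟨tw τ χ.1, good_tw τ χ.2⟩
  let f : Ω → ResField M := fun χ => redC M ((χ.1 : S → ℂ) x)
  obtain ⟨n, t, ht⟩ := hτ
  have hs : ∀ ω, s^[2 ^ n] ω = ω := by
    intro ω
    apply Subtype.ext
    have h1 : ∀ m, (s^[m] ω).1 = (tw τ)^[m] ω.1 := by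
      intro m
      induction m with
      | zero => rfl
      | succ m ih =>
        rw [Function.iterate_succ_apply', Function.iterate_succ_apply', ← ih]
    rw [h1, tw_iter]
    exact tw_conj t ht ω.1
  have hf : ∀ ω, f (s ω) = f ω := by
    intro ω
    show redC M ((ω.1 : S → ℂ) (τ x)) = redC M ((ω.1 : S → ℂ) x)
    obtain ⟨c, hc⟩ := isConj_iff.1 hc
    rw [← hc, isIrr_isClassFunction ω.1.2]
  have h1 := sum_fixed_perm s n hs f hf
  have h2 : ∑ ω : Ω, f ω = 0 := by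
    rw [← sum_good hM hev hx (Finset.univ.filter fun χ : IrrCharacter S => Good (χ : S → ℂ)) (by simp)]
    exact (Finset.sum_subtype _ (by simp) (fun χ : IrrCharacter S => redC M ((χ : S → ℂ) x))).symm
  rw [h2] at h1
  rw [h1]
  symm
  refine Finset.sum_bij (fun (ω : Ω) _ => ω.1) ?_ ?_ ?_ ?_
  · intro ω hω
    rw [Finset.mem_filter] at hω
    refine (hO _).2 ⟨ω.2, fun g => ?_⟩
    have h3 := congrArg (fun χ : Ω => ((χ.1 : IrrCharacter S) : S → ℂ) g) hω.2
    exact h3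
  · intro a _ b _ hab
    exact Subtype.ext hab
  · intro χ hχ
    obtain ⟨h3, h4⟩ := (hO χ).1 hχ
    refine ⟨⟨χ, h3⟩, ?_, rfl⟩
    rw [Finset.mem_filter]
    refine ⟨Finset.mem_univ _, Subtype.ext (Subtype.ext (funext fun g => ?_))⟩
    exact h4 g
  · intro ω _
    rfl

/-- the trivial character is good -/
theorem good_one [Finite S] : Good (1 : S → ℂ) := by
  have h1 : IsIrrCharacter S (1 : S → ℂ) := isIrr_one
  have h2 : OddIrr (1 : S → ℂ) := by
    refine ⟨h1, ?_⟩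
    have h3 : charDegree (1 : S → ℂ) = 1 := by
      rw [Cfsg.Agent.Blocks.Basic.charDegree_of_eq (n := 1) (by simp)]
    rw [h3]
    norm_num
  exact ⟨h2, fun _ _ _ _ => rfl, InB0.of_real h2 (fun _ => by simp)⟩

/-- the number of the invariant good characters is even -/
theorem even_inv [Finite S] (hev : Even (Nat.card S)) {τ : MulAut S} (hτ : TwoPow τ) (O : Finset (IrrCharacter S))
    (hO : ∀ χ, χ ∈ O ↔ Good (χ : S → ℂ) ∧ ∀ s, (χ : S → ℂ) (τ s) = (χ : S → ℂ) s) : Even O.card := by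
  obtain ⟨M, hM⟩ := Cfsg.Agent.Blocks.ExistsModular.exists_isPModular Nat.prime_two
  have : M.IsPrime := hM.2.1.isPrime
  have hchar := charP_resField hM
  have h1 := sum_inv hM hev hτ (x := 1) (by rw [orderOf_one]; exact odd_one) (by rw [map_one]) O hO
  have h2 : ∀ χ ∈ O, redC M ((χ : S → ℂ) 1) = 1 := by
    intro χ hχ
    have h3 := ((hO χ).1 hχ).1.odd.2
    have h4 : (χ : S → ℂ) 1 = (charDegree (χ : S → ℂ) : ℂ) := Cfsg.Agent.Blocks.Basic.irr_one_eq_charDegree χ.2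
    rw [h4, redC_natCast]
    have h5 : charDegree (χ : S → ℂ) % 2 = 1 := by omega
    rw [← Nat.div_add_mod (charDegree (χ : S → ℂ)) 2, h5]
    push_cast
    rw [CharTwo.two_eq_zero, zero_mul, zero_add]
  rw [Finset.sum_congr rfl h2, Finset.sum_const, nsmul_eq_mul, mul_one, CharP.cast_eq_zero_iff (ResField M) 2] at h1
  exact even_iff_two_dvd.2 h1

/-- three invariant good characters -/
theorem gInv3_of_card {τ : MulAut S} (O : Finset (IrrCharacter S))
    (hO : ∀ χ ∈ O, Good (χ : S → ℂ) ∧ ∀ s, (χ : S → ℂ) (τ s) = (χ : S → ℂ) s) (h3 : 3 ≤ O.card) : GInv3 τ := by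
  obtain ⟨P, hP, hc⟩ := Finset.exists_subset_card_eq h3
  let e := (Finset.equivFinOfCardEq hc).symm
  refine ⟨fun i => ((e i : IrrCharacter S) : S → ℂ), ?_, fun i => ?_⟩
  · intro i j hij
    exact e.injective (Subtype.ext (Subtype.ext hij))
  · exact hO _ (hP (e i).2)

/-- **A second invariant good character; if `GInv3 τ` fails there are exactly two, and the second one is `1` modulo `M` at
the `τ`-stable elements of odd order.** -/
theorem exists_inv [Finite S] (hev : Even (Nat.card S)) {τ : MulAut S} (hτ : TwoPow τ) (hg : ¬ GInv3 τ) :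
    ∃ χ : IrrCharacter S, (χ : S → ℂ) ≠ 1 ∧ Good (χ : S → ℂ) ∧ (∀ s, (χ : S → ℂ) (τ s) = (χ : S → ℂ) s) ∧
      (∀ ψ : IrrCharacter S, Good (ψ : S → ℂ) → (∀ s, (ψ : S → ℂ) (τ s) = (ψ : S → ℂ) s) →
        (ψ : S → ℂ) = 1 ∨ ψ = χ) ∧
      ∀ x : S, Odd (orderOf x) → IsConj x (τ x) → ∀ n : ℕ, (χ : S → ℂ) x = n → Odd n := by
  classical
  have hfin : Finite (IrrCharacter S) := finite_irr
  have := Fintype.ofFinite (IrrCharacter S)
  let O : Finset (IrrCharacter S) :=
    Finset.univ.filter fun χ => Good (χ : S → ℂ) ∧ ∀ s, (χ : S → ℂ) (τ s) = (χ : S → ℂ) s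
  have hO : ∀ χ, χ ∈ O ↔ Good (χ : S → ℂ) ∧ ∀ s, (χ : S → ℂ) (τ s) = (χ : S → ℂ) s := fun χ => by simp [O]
  let ε : IrrCharacter S := ⟨1, isIrr_one⟩
  have hε : ε ∈ O := (hO ε).2 ⟨good_one, fun _ => rfl⟩
  have h1 := even_inv hev hτ O hO
  have h2 : ¬ 3 ≤ O.card := fun h => hg (gInv3_of_card O (fun χ hχ => (hO χ).1 hχ) h)
  have h3 : 0 < O.card := Finset.card_pos.2 ⟨ε, hε⟩
  have h4 : O.card = 2 := by
    obtain ⟨m, hm⟩ := h1
    omega
  obtain ⟨χ, hχε, hχO⟩ : ∃ χ, χ ≠ ε ∧ O = {ε, χ} := by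
    obtain ⟨a, b, hab, hOab⟩ := Finset.card_eq_two.1 h4
    rw [hOab, Finset.mem_insert, Finset.mem_singleton] at hε
    rcases hε with rfl | rfl
    · exact ⟨b, hab.symm, hOab⟩
    · exact ⟨a, hab, by rw [hOab, Finset.pair_comm]⟩
  have hχ : χ ∈ O := by rw [hχO]; simp
  refine ⟨χ, fun h => hχε (Subtype.ext h), ((hO χ).1 hχ).1, ((hO χ).1 hχ).2, ?_, ?_⟩
  · intro ψ hψ1 hψ2
    have h5 := (hO ψ).2 ⟨hψ1, hψ2⟩
    rw [hχO, Finset.mem_insert, Finset.mem_singleton] at h5
    rcases h5 with h5 | h5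
    · left
      rw [h5]
    · exact Or.inr h5
  · intro x hx hc n hn
    obtain ⟨M, hM⟩ := Cfsg.Agent.Blocks.ExistsModular.exists_isPModular Nat.prime_two
    have : M.IsPrime := hM.2.1.isPrime
    have hchar := charP_resField hM
    have h5 := sum_inv hM hev hτ hx hc O hO
    rw [hχO, Finset.sum_pair hχε.symm, hn, redC_natCast] at h5
    have h6 : redC M ((ε : S → ℂ) x) = 1 := by
      have h7 : (ε : S → ℂ) x = ((1 : ℕ) : ℂ) := by
        rw [Nat.cast_one]; rfl
      rw [h7, redC_natCast, Nat.cast_one]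
    rw [h6] at h5
    have h8 : ((1 + n : ℕ) : ResField M) = 0 := by push_cast; exact h5
    rw [CharP.cast_eq_zero_iff (ResField M) 2] at h8
    rw [Nat.odd_iff]
    omega

/-- **(PAR)** -/
theorem gInv3_of_two [Finite S] (hev : Even (Nat.card S)) {τ : MulAut S} (hτ : TwoPow τ) {χ : IrrCharacter S}
    (hg : Good (χ : S → ℂ)) (hi : ∀ s, (χ : S → ℂ) (τ s) = (χ : S → ℂ) s) (h1 : (χ : S → ℂ) ≠ 1) {x : S}
    (hx : Odd (orderOf x)) (hc : IsConj x (τ x)) {n : ℕ} (hn : (χ : S → ℂ) x = n) (hn2 : Even n) : GInv3 τ := by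
  by_contra hcon
  obtain ⟨ψ, -, -, -, h4, h5⟩ := exists_inv hev hτ hcon
  rcases h4 χ hg hi with h6 | h6
  · exact h1 h6
  · subst h6
    exact (Nat.not_even_iff_odd.2 (h5 x hx hc n hn)) hn2

end Cfsg.Agent.H306.K547
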